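import Mathlib
import Cfsg.Agent.SplitTwo.HexDefs

/-!
# The trace form of `F_{q³}` over `F_q` (helper804, S2501)

* `card_trc` : `trc σ a b = 0` for `a ∈ D`, `b ∈ D'` implies `|D| |D'| ≤ q³`;
* `card_crs` : `crs σ a b = 0` for `b ∈ D`, `a ≠ 0`, implies `|D| ≤ q`.
-/

set_option autoImplicit false

namespace Cfsg.Agent.H804.D4Ab

open Cfsg.Agent.SplitTwo Module

variable {K : Type*} [Field K] [Fintype K] {σ : K ≃+* K} {q : ℕ}

/-- the fixed field -/
abbrev Fq (σ : K ≃+* K) : Subfield K := RingHom.eqLocusField (σ : K →+* K) (RingHom.id K)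

omit [Fintype K] in
theorem fq (t : Fq σ) : σ t = t := t.2

theorem card_fq (hq : 1 < q) (hK : Fintype.card K = q ^ 3) (hσ : ∀ x, σ x = x ^ q) : Nat.card (Fq σ) = q := by
  classical
  -- `|F^*| = gcd (q - 1, q ^ 3 - 1) = q - 1`
  have h1 : Nat.card (Fq σ)ˣ = q - 1 := by
    obtain ⟨g, hg⟩ := IsCyclic.exists_generator (α := Kˣ)
    have hcard : Nat.card Kˣ = q ^ 3 - 1 := by rw [Nat.card_units, Nat.card_eq_fintype_card, hK]
    have hpow : ∀ u : Kˣ, u ^ (q - 1) = 1 → σ (u : K) = (u : K) := by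
      intro u hu
      calc σ (u : K) = (u : K) ^ ((q - 1) + 1) := by rw [Nat.sub_add_cancel hq.le, hσ]
        _ = ((u ^ (q - 1) : Kˣ) : K) * (u : K) := by rw [pow_succ, Units.val_pow_eq_pow_val]
        _ = (u : K) := by rw [hu, Units.val_one, one_mul]
    have h2 : Nat.card (Fq σ)ˣ = Nat.card ((powMonoidHom (q - 1) : Kˣ →* Kˣ).ker) := by
      refine Nat.card_congr
        { toFun := fun x => ⟨Units.map ((Fq σ).subtype : Fq σ →* K) x, ?_⟩
          invFun := fun b => ⟨⟨b.1, ?_⟩, ⟨((b.1⁻¹ : Kˣ) : K), ?_⟩, ?_, ?_⟩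
          left_inv := fun x => Units.ext (Subtype.ext rfl)
          right_inv := fun x => Subtype.ext (Units.ext rfl) }
      · rw [MonoidHom.mem_ker]
        apply Units.ext
        have h3 := fq (x : Fq σ)
        rw [hσ] at h3
        have h4 : ((x : Fq σ) : K) ≠ 0 := fun h => x.ne_zero (Subtype.ext h)
        show ((x : Fq σ) : K) ^ (q - 1) = 1
        have h5 : ((x : Fq σ) : K) ^ (q - 1) * ((x : Fq σ) : K) = 1 * ((x : Fq σ) : K) := by
          rw [← pow_succ, Nat.sub_add_cancel hq.le, h3, one_mul]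
        exact mul_right_cancel₀ h4 h5
      · have h3 : b.1 ^ (q - 1) = 1 := b.2
        exact hpow b.1 h3
      · have h3 : b.1 ^ (q - 1) = 1 := b.2
        have h4 : (b.1⁻¹) ^ (q - 1) = 1 := by rw [inv_pow, h3, inv_one]
        exact hpow b.1⁻¹ h4
      · exact Subtype.ext (Units.mul_inv _)
      · exact Subtype.ext (Units.inv_mul _)
    rw [h2, IsCyclic.card_powMonoidHom_ker, hcard]
    have h6 : q - 1 ∣ q ^ 3 - 1 := by
      have := Nat.sub_dvd_pow_sub_pow q 1 3
      simpa using this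
    rw [Nat.gcd_comm]
    exact Nat.gcd_eq_left h6
  rw [Nat.card_units] at h1
  have h3 : 0 < Nat.card (Fq σ) := Nat.card_pos
  omega

theorem finrank_fq (hq : 1 < q) (hK : Fintype.card K = q ^ 3) (hσ : ∀ x, σ x = x ^ q) :
    Module.finrank (Fq σ) K = 3 := by
  have h1 : Nat.card K = Nat.card (Fq σ) ^ Module.finrank (Fq σ) K := Module.natCard_eq_pow_finrank
  rw [card_fq hq hK hσ, Nat.card_eq_fintype_card, hK] at h1
  exact (Nat.pow_right_injective hq h1).symm

theorem exists_trace_ne (hq : 1 < q) (hK : Fintype.card K = q ^ 3) (hσ : ∀ x, σ x = x ^ q) :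
    ∃ y : K, y + σ y + σ (σ y) ≠ 0 := by
  by_contra hcon
  push Not at hcon
  let P : Polynomial K := Polynomial.X + Polynomial.X ^ q + Polynomial.X ^ (q * q)
  have hqq : q < q * q := by nlinarith
  have hd : P.natDegree ≤ q * q := by
    refine (Polynomial.natDegree_add_le _ _).trans (max_le ((Polynomial.natDegree_add_le _ _).trans (max_le ?_ ?_)) ?_)
    · rw [Polynomial.natDegree_X]; omega
    · rw [Polynomial.natDegree_X_pow]; omega
    · rw [Polynomial.natDegree_X_pow]
  have hP : P = 0 := by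
    apply Polynomial.eq_zero_of_natDegree_lt_card_of_eval_eq_zero P (f := fun t : K => t) (fun a b h => h)
    · intro y
      have h := hcon y
      rw [hσ, hσ, ← pow_mul] at h
      simpa [P] using h
    · rw [hK]
      have : q * q < q ^ 3 := by
        rw [pow_succ, pow_two]
        nlinarith
      omega
  have h1 : P.coeff 1 = 1 := by
    show (Polynomial.X + Polynomial.X ^ q + Polynomial.X ^ (q * q) : Polynomial K).coeff 1 = 1
    rw [Polynomial.coeff_add, Polynomial.coeff_add, Polynomial.coeff_X_one, Polynomial.coeff_X_pow,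
      Polynomial.coeff_X_pow, if_neg (by omega), if_neg (by omega), add_zero, add_zero]
  rw [hP, Polynomial.coeff_zero] at h1
  exact zero_ne_one h1

/-- **Orthogonal sets for the trace form.** -/
theorem card_trc (hq : 1 < q) (hK : Fintype.card K = q ^ 3) (hσ : ∀ x, σ x = x ^ q) (h3 : ∀ a, σ (σ (σ a)) = a)
    {D D' : Set K} (h : ∀ a ∈ D, ∀ b ∈ D', trc σ a b = 0) : Nat.card D * Nat.card D' ≤ q ^ 3 := by
  classical
  have htf : ∀ x : K, σ (x + σ x + σ (σ x)) = x + σ x + σ (σ x) := fun x => by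
    rw [map_add, map_add, h3]; ring
  let Tl : K →ₗ[Fq σ] Fq σ :=
    { toFun := fun x => ⟨x + σ x + σ (σ x), htf x⟩
      map_add' := fun x y => Subtype.ext (by
        show x + y + σ (x + y) + σ (σ (x + y)) = (x + σ x + σ (σ x)) + (y + σ y + σ (σ y))
        simp only [map_add]; ring)
      map_smul' := fun c x => Subtype.ext (by
        show (c : K) * x + σ ((c : K) * x) + σ (σ ((c : K) * x)) = (c : K) * (x + σ x + σ (σ x))
        simp only [map_mul, fq]; ring) }
  have hTl : ∀ x, ((Tl x : Fq σ) : K) = x + σ x + σ (σ x) := fun x => rfl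
  let Bf : LinearMap.BilinForm (Fq σ) K := LinearMap.mk₂ (Fq σ) (fun x y => Tl (x * y))
    (fun x y z => by rw [add_mul, map_add]) (fun c x y => by rw [smul_mul_assoc, map_smul])
    (fun x y z => by rw [mul_add, map_add]) (fun c x y => by rw [mul_smul_comm, map_smul])
  have hBf : ∀ x y, Bf x y = Tl (x * y) := fun x y => rfl
  obtain ⟨y0, hy0⟩ := exists_trace_ne hq hK hσ
  have hy0' : Tl y0 ≠ 0 := fun h => hy0 (by rw [← hTl, h]; rfl)
  have hnd : Bf.Nondegenerate := by
    constructor
    · intro x hx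
      by_contra hx0
      apply hy0'
      have := hx (x⁻¹ * y0)
      rwa [hBf, ← mul_assoc, mul_inv_cancel₀ hx0, one_mul] at this
    · intro x hx
      by_contra hx0
      apply hy0'
      have := hx (y0 * x⁻¹)
      rwa [hBf, mul_assoc, inv_mul_cancel₀ hx0, mul_one] at this
  let W : Submodule (Fq σ) K := Submodule.span (Fq σ) D
  have h1 := LinearMap.BilinForm.finrank_orthogonal hnd W
  have h2 : finrank (Fq σ) W ≤ finrank (Fq σ) K := Submodule.finrank_le W
  rw [finrank_fq hq hK hσ] at h1 h2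
  have hW : Nat.card W = q ^ finrank (Fq σ) W := by
    rw [Module.natCard_eq_pow_finrank (K := Fq σ) (V := W), card_fq hq hK hσ]
  have hW' : Nat.card (Bf.orthogonal W) = q ^ finrank (Fq σ) (Bf.orthogonal W) := by
    rw [Module.natCard_eq_pow_finrank (K := Fq σ) (V := Bf.orthogonal W), card_fq hq hK hσ]
  have hD : Nat.card D ≤ Nat.card W := Nat.card_mono (Set.toFinite _) Submodule.subset_span
  have hD' : Nat.card D' ≤ Nat.card (Bf.orthogonal W) := by
    refine Nat.card_mono (Set.toFinite _) ?_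
    intro b hb
    show b ∈ Bf.orthogonal W
    rw [LinearMap.BilinForm.mem_orthogonal_iff]
    intro a ha
    show Bf a b = 0
    induction ha using Submodule.span_induction with
    | mem a ha => exact Subtype.ext (h a ha b hb)
    | zero => rw [map_zero, LinearMap.zero_apply]
    | add x y _ _ hx hy => rw [map_add, LinearMap.add_apply, hx, hy, add_zero]
    | smul c x _ hx => rw [map_smul, LinearMap.smul_apply, hx, smul_zero]
  calc Nat.card D * Nat.card D' ≤ Nat.card W * Nat.card (Bf.orthogonal W) := Nat.mul_le_mul hD hD'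
    _ = q ^ 3 := by rw [hW, hW', ← pow_add, h1]; congr 1; omega

omit [Fintype K] in
/-- the kernel of the cross product -/
theorem crs_zero (h3 : ∀ a, σ (σ (σ a)) = a) {a b : K} (ha : a ≠ 0) (h : crs σ a b = 0) : σ (b / a) = b / a := by
  have hs : σ a ≠ 0 := (map_ne_zero σ).2 ha
  have hss : σ (σ a) ≠ 0 := (map_ne_zero σ).2 hs
  -- `w = σ b / σ a` satisfies `σ w = - w`
  have h1 : σ (σ b) / σ (σ a) = -(σ b / σ a) := by
    have h2 : σ a * σ (σ b) + σ (σ a) * σ b = 0 := h
    field_simp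
    linear_combination h2
  have h4 : σ (σ (b / a)) = -σ (b / a) := by rw [map_div₀, map_div₀]; exact h1
  have h5 : σ (b / a) = -(b / a) := by
    have := congrArg (fun x => σ (σ x)) h4
    simp only [h3, map_neg] at this
    -- `σ (b/a) = - (b/a)`
    exact this
  have h6 : b / a = -(b / a) := by
    have h7 := h3 (b / a)
    rw [h5, map_neg, h5, neg_neg, h5] at h7
    exact h7.symm
  rw [h5, ← h6]

theorem card_crs (hq : 1 < q) (hK : Fintype.card K = q ^ 3) (hσ : ∀ x, σ x = x ^ q) (h3 : ∀ a, σ (σ (σ a)) = a)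
    {a : K} (ha : a ≠ 0) {D : Set K} (h : ∀ b ∈ D, crs σ a b = 0) : Nat.card D ≤ q := by
  rw [← card_fq hq hK hσ]
  refine Nat.card_le_card_of_injective (fun b : D => (⟨b.1 / a, crs_zero h3 ha (h b.1 b.2)⟩ : Fq σ)) ?_
  intro b c hbc
  have h1 : b.1 / a = c.1 / a := congrArg Subtype.val hbc
  exact Subtype.ext ((div_left_inj' ha).1 h1)

theorem card_fix (hq : 1 < q) (hK : Fintype.card K = q ^ 3) (hσ : ∀ x, σ x = x ^ q)
    {D : Set K} (h : ∀ b ∈ D, σ b = b) : Nat.card D ≤ q := by
  rw [← card_fq hq hK hσ]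
  refine Nat.card_le_card_of_injective (fun b : D => (⟨b.1, h b.1 b.2⟩ : Fq σ)) ?_
  intro b c hbc
  exact Subtype.ext (congrArg (fun x : Fq σ => (x : K)) hbc)

end Cfsg.Agent.H804.D4Ab
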