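import Cfsg.Agent.H804.D4Ab.UniCard
import Cfsg.Agent.H240.TwD4Z
import Cfsg.Agent.H157.Ab.Rows

/-!
# `³D₄(q)`: abelian `p`-subgroups, `p` the characteristic (helper804)

* `pb` : `|A| ≤ q⁶`;
* `pb_twD4` : the statement `PBTwD4` of `H157/Ab/Rows`.
-/

set_option autoImplicit false

namespace Cfsg.Agent.H804.D4Ab

open Cfsg Cfsg.Lie Cfsg.Agent.ChevalleyStructure Cfsg.Agent.ChevalleyStructure.D4Comm
open Cfsg.Agent.ChevalleyStructure.D4U Cfsg.Agent.ChevalleyStructure.D4Pos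
open Cfsg.Agent.ChevalleyStructure.D4Fixed (fix mem_fix twisted_le_fix)
open Cfsg.Agent.Hexagon.TwD4Rel

/-- the positive unipotent subgroup is a Sylow `p`-subgroup: conjugation into it -/
theorem exists_conj_U {K : Type*} [Field K] [Fintype K] {q : ℕ} (hq : IsPrimePow q)
    (hK : Fintype.card K = q ^ 3) {p : ℕ} [hp : Fact p.Prime] (hpq : p ∣ q) (A : Subgroup ↥(twistedD4 K q))
    (hA : IsPGroup p A) : ∃ g : ↥(twistedD4 K q), ∀ a ∈ A,
      ((g * a * g⁻¹ : ↥(twistedD4 K q)) : GL chevD4.Idx K) ∈ chevD4.posUnipotent K := by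
  have hfin : Finite ↥(twistedD4 K q) := inferInstance
  have hq1 := hq.one_lt
  obtain ⟨n, hn⟩ : ∃ n, q = p ^ n := by
    obtain ⟨r, k, hr, hk, rfl⟩ := hq
    have hr' := hr.nat_prime
    have h1 : p = r := (Nat.prime_dvd_prime_iff_eq hp.out hr').1 (hp.out.dvd_of_dvd_pow hpq)
    exact ⟨k, by rw [h1]⟩
  set U : Subgroup ↥(twistedD4 K q) := (chevD4.posUnipotent K ⊓ twistedD4 K q).subgroupOf (twistedD4 K q) with hU
  have hUc : Nat.card U = q ^ 12 := by
    rw [← card_U1 hq hK, hU]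
    exact Nat.card_congr (Subgroup.subgroupOfEquivOfLe inf_le_right).toEquiv
  have hUp : IsPGroup p U := IsPGroup.of_card (n := n * 12) (by rw [hUc, hn, pow_mul])
  have hidx : ¬ p ∣ U.index := by
    have h1 := U.card_mul_index
    rw [hUc, S1067.result hq hK, mul_assoc, mul_assoc] at h1
    have h2 : U.index = (q ^ 2 - 1) * ((q ^ 6 - 1) * (q ^ 8 + q ^ 4 + 1)) :=
      Nat.eq_of_mul_eq_mul_left (pow_pos hq.pos 12) h1
    rw [h2]
    have key : ∀ m, m ≠ 0 → ¬ p ∣ q ^ m - 1 := by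
      intro m hm h3
      have h4 : p ∣ q ^ m := hpq.trans (dvd_pow_self q hm)
      have h5 : 1 ≤ q ^ m := Nat.one_le_pow _ _ hq.pos
      have h6 := (Nat.dvd_sub_iff_right h5 h4).1 h3
      exact hp.out.one_lt.ne' (Nat.dvd_one.1 h6)
    intro h3
    rcases hp.out.dvd_mul.1 h3 with h4 | h4
    · exact key 2 two_ne_zero h4
    rcases hp.out.dvd_mul.1 h4 with h5 | h5
    · exact key 6 (by norm_num) h5
    · have h6 : p ∣ q ^ 8 + q ^ 4 := dvd_add (hpq.trans (dvd_pow_self q (by norm_num)))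
        (hpq.trans (dvd_pow_self q (by norm_num)))
      have h7 := (Nat.dvd_add_right h6).1 h5
      exact hp.out.one_lt.ne' (Nat.dvd_one.1 h7)
  let S : Sylow p ↥(twistedD4 K q) := hUp.toSylow hidx
  obtain ⟨P, hP⟩ := hA.exists_le_sylow
  obtain ⟨g, hg⟩ := MulAction.exists_smul_eq ↥(twistedD4 K q) P S
  refine ⟨g, fun a ha => ?_⟩
  have h2 : g * a * g⁻¹ ∈ (g • P : Sylow p ↥(twistedD4 K q)) := by
    rw [← SetLike.mem_coe, Sylow.coe_smul]
    exact ⟨a, hP ha, rfl⟩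
  rw [hg] at h2
  have h3 : g * a * g⁻¹ ∈ U := h2
  exact (Subgroup.mem_inf.1 (Subgroup.mem_subgroupOf.1 h3)).1

theorem pb {K : Type*} [Field K] [Fintype K] {q : ℕ} (hq : IsPrimePow q)
    (hK : Fintype.card K = q ^ 3) {p : ℕ} [hp : Fact p.Prime] (hpq : p ∣ q) (A : Subgroup ↥(twistedD4 K q))
    (hAc : ∀ x ∈ A, ∀ y ∈ A, x * y = y * x) (hA : IsPGroup p A) : Nat.card A ≤ q ^ 6 := by
  obtain ⟨g, hg⟩ := exists_conj_U hq hK hpq A hA
  obtain ⟨φ, hφ⟩ := D4Fixed.exists_frob hq hK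
  have h3 := phi3 hK hφ
  have hle := twisted_le_fix hK hφ
  let σ : K ≃+* K := RingEquiv.ofBijective φ ⟨φ.injective, Finite.surjective_of_injective φ.injective⟩
  have hσφ : (σ : K →+* K) = φ := by ext x; rfl
  set B : Subgroup (GL chevD4.Idx K) :=
    (A.map (MulAut.conj g).toMonoidHom).map (twistedD4 K q).subtype with hB
  have hcard : Nat.card B = Nat.card A := by
    rw [hB, Subgroup.card_map_of_injective (Subgroup.subtype_injective _),
      Subgroup.card_map_of_injective (MulAut.conj g).injective]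
  have hmem : ∀ b ∈ B, ∃ a ∈ A, b = ((g * a * g⁻¹ : ↥(twistedD4 K q)) : GL chevD4.Idx K) := by
    rintro b ⟨c, ⟨a, ha, rfl⟩, rfl⟩
    exact ⟨a, ha, rfl⟩
  rw [← hcard]
  refine card_six (σ := σ) hq.one_lt hK hφ h3 ?_ ?_ ?_
  · intro b hb
    obtain ⟨a, -, rfl⟩ := hmem b hb
    rw [hσφ]
    exact hle (g * a * g⁻¹).2
  · intro b hb
    obtain ⟨a, ha, rfl⟩ := hmem b hb
    have h1 := hg a ha
    rw [D4Pos.posUnipotent_eq_rspan ordA D4Pos.mem_ordA_iff] at h1
    exact h1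
  · intro x hx y hy
    obtain ⟨a, ha, rfl⟩ := hmem x hx
    obtain ⟨b, hb, rfl⟩ := hmem y hy
    have h1 : g * a * g⁻¹ * (g * b * g⁻¹) = g * b * g⁻¹ * (g * a * g⁻¹) := by
      calc g * a * g⁻¹ * (g * b * g⁻¹) = g * (a * b) * g⁻¹ := by group
        _ = g * (b * a) * g⁻¹ := by rw [hAc a ha b hb]
        _ = _ := by group
    have h2 := congrArg (Subtype.val) h1
    simpa only [Subgroup.coe_mul] using h2

theorem pb_twD4 : H157.Ab.PBTwD4 := by
  intro K _ _ q hK p hp hC A hAc hAp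
  have hq : IsPrimePow q := by
    have h1 := FiniteField.isPrimePow_card K
    rw [hK] at h1
    exact (isPrimePow_pow_iff (by norm_num)).1 h1
  have hpq : p ∣ q := by
    obtain ⟨n, hn⟩ := CharP.exists K |>.imp fun _ _ => trivial
    have h1 : p ∣ Fintype.card K := by
      have h2 : (Fintype.card K : K) = 0 := FiniteField.cast_card_eq_zero K
      exact (CharP.cast_eq_zero_iff K p _).1 h2
    rw [hK] at h1
    exact hp.out.dvd_of_dvd_pow h1
  have h := pb hq hK hpq A (fun x hx y hy => by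
    have := hAc.is_comm.comm (⟨x, hx⟩ : A) ⟨y, hy⟩
    exact congrArg Subtype.val this) hAp
  calc Nat.card A ^ 2 ≤ (q ^ 6) ^ 2 := Nat.pow_le_pow_left h 2
    _ = q ^ 12 := by ring
    _ ≤ q ^ 13 := Nat.pow_le_pow_right hq.pos (by norm_num)

end Cfsg.Agent.H804.D4Ab
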