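import Cfsg.Agent.H804.D4Ab.Pb
import Cfsg.Agent.H804.D4Ab.Sb
import Cfsg.Agent.H157.Ab.X1
import Cfsg.Agent.H928.AbNum
import Cfsg.Agent.H498.Ab.Def

/-!
# `³D₄(q)`: `|A|³ < |G|` for the abelian subgroups `A` (helper804, task 820)

* `ab3_3D4_of` : the row from `X3` (torus bound).
-/

set_option autoImplicit false

namespace Cfsg.Agent.H804.D4Ab

open Cfsg

/-- **`³D₄(q)`** -/
theorem ab3_3D4_of (hX : H157.Ab.X3) {G : Type*} [Group G] [Finite G] [IsSimpleGroup G] (h : Cfsg.Lie.Iso3D4 G) :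
    Cfsg.Agent.H498.Ab.Ab3 G := by
  obtain ⟨K, _, _, q, hq, hK, ⟨e⟩⟩ := h
  have h1 : H157.Ab.Ab3 ↥(Cfsg.Lie.twistedD4 K q) :=
    H928.AbNum.twD4_of H157.Ab.x1 pb_twD4 (sb_twD4 hX) K q hq hK
  exact H498.Ab.Ab3.congr e.symm h1

end Cfsg.Agent.H804.D4Ab
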