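import Cfsg.Agent.KFacts.Mult.D4Base
import Cfsg.Agent.Hexagon.TwD4Rel

/-!
# Abelian unipotent subgroups of `³D₄(q)` (helper804, S2501)

The filtration `LL 0 ⊃ LL 1 ⊃ …` of the positive unipotent group by the relative roots
`b, a, a + b, 2a + b, 3a + b, 3a + 2b`, coordinates `xs i`, leading coordinates of commutators.
-/

set_option autoImplicit false

namespace Cfsg.Agent.H804.D4Ab

open Cfsg.Lie Subgroup
open Cfsg.Agent.ChevalleyStructure.D4Fixed (sig coe_sig fix mem_fix)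
open Cfsg.Agent.ChevalleyStructure
open Cfsg.Agent.ChevalleyStructure.D4Comm
open Cfsg.Agent.ChevalleyStructure.D4CommTab
open Cfsg.Agent.ChevalleyStructure.D4Pos
open Cfsg.Agent.ChevalleyStructure.D4NConj
open Cfsg.Agent.ChevalleyStructure.TwistedU
open Cfsg.Agent.ChevalleyStructure.D4U
open Cfsg.Agent.KFacts.Mult.D4Base
open Cfsg.Agent.Hexagon.TwD4Rel Cfsg.Agent.SplitTwo
open scoped commutatorElement

/-! ### an abstract lemma -/

/-- leading terms of commutators -/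
theorem kk_mem {G : Type*} [Group G] {H N : Subgroup G} (hN : ∀ g ∈ H, ∀ n ∈ N, g * n * g⁻¹ ∈ N)
    {x u y v : G} (hx : x ∈ H) (hu : u ∈ H) (hy : y ∈ H) (hv : v ∈ H)
    (h1 : ⁅u, y⁆ ∈ N) (h2 : ⁅u, v⁆ ∈ N) (h3 : ⁅x, v⁆ ∈ N)
    (hc : (x * u) * (y * v) = (y * v) * (x * u)) : kk x y ∈ N := by
  have hnor : (N.subgroupOf H).Normal := ⟨fun n hn g => by
    rw [mem_subgroupOf] at hn ⊢
    exact hN g g.2 n hn⟩
  let π := QuotientGroup.mk' (N.subgroupOf H)
  have hmem : ∀ a b : H, ⁅(a : G), (b : G)⁆ ∈ N → π a * π b = π b * π a := by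
    intro a b h
    have h4 : π ⁅a, b⁆ = 1 := by
      rw [QuotientGroup.mk'_apply, QuotientGroup.eq_one_iff, mem_subgroupOf]
      exact h
    rw [map_commutatorElement, commutatorElement_eq_one_iff_mul_comm] at h4
    exact h4
  have e1 := hmem ⟨u, hu⟩ ⟨y, hy⟩ h1
  have e2 := hmem ⟨u, hu⟩ ⟨v, hv⟩ h2
  have e3 := hmem ⟨x, hx⟩ ⟨v, hv⟩ h3
  have e4 : (π ⟨x, hx⟩ * π ⟨u, hu⟩) * (π ⟨y, hy⟩ * π ⟨v, hv⟩) = (π ⟨y, hy⟩ * π ⟨v, hv⟩) * (π ⟨x, hx⟩ * π ⟨u, hu⟩) := by
    rw [← map_mul, ← map_mul, ← map_mul, ← map_mul]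
    exact congrArg π (Subtype.ext hc)
  have e5 : π ⟨x, hx⟩ * π ⟨y, hy⟩ = π ⟨y, hy⟩ * π ⟨x, hx⟩ := by
    generalize π ⟨x, hx⟩ = X at *
    generalize π ⟨u, hu⟩ = U at *
    generalize π ⟨y, hy⟩ = Y at *
    generalize π ⟨v, hv⟩ = V at *
    have h5 : (X * U) * (Y * V) = (X * Y) * (V * U) := by
      calc (X * U) * (Y * V) = X * (U * Y) * V := by group
        _ = X * (Y * U) * V := by rw [e1]
        _ = X * Y * (U * V) := by group
        _ = _ := by rw [e2]
    have h6 : (Y * V) * (X * U) = (Y * X) * (V * U) := by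
      calc (Y * V) * (X * U) = Y * (V * X) * U := by group
        _ = Y * (X * V) * U := by rw [e3]
        _ = _ := by group
    rw [h5, h6] at e4
    exact mul_right_cancel e4
  have e6 : π (kk ⟨x, hx⟩ ⟨y, hy⟩) = 1 := by
    rw [kk, map_mul, map_mul, map_mul, map_inv, map_inv, mul_assoc, e5]
    group
  rw [QuotientGroup.mk'_apply, QuotientGroup.eq_one_iff, mem_subgroupOf] at e6
  exact e6

/-- counting with leading coordinates -/
theorem card_step {G : Type*} [Group G] [Finite G] {K : Type*} [Finite K] {P Q : Subgroup G} (hQ : Q ≤ P) (x : K → G)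
    (A : Subgroup G) (D : Set K) (hD : ∀ g ∈ A ⊓ P, ∃ a ∈ D, (x a)⁻¹ * g ∈ Q) :
    Nat.card ↥(A ⊓ P) ≤ Nat.card D * Nat.card ↥(A ⊓ Q) := by
  have h1 : A ⊓ Q ≤ A ⊓ P := inf_le_inf_left A hQ
  have h2 := Subgroup.card_mul_index ((A ⊓ Q).subgroupOf (A ⊓ P))
  rw [Nat.card_congr (Subgroup.subgroupOfEquivOfLe h1).toEquiv, mul_comm] at h2
  rw [← h2]
  refine Nat.mul_le_mul_right _ ?_
  choose f hf using fun g : ↥(A ⊓ P) => hD g g.2
  let F : ↥(A ⊓ P) ⧸ ((A ⊓ Q).subgroupOf (A ⊓ P)) → D := fun c => ⟨f c.out, (hf c.out).1⟩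
  refine Nat.card_le_card_of_injective F fun c d h => ?_
  have h3 : f c.out = f d.out := congrArg Subtype.val h
  have h4 : (c.out)⁻¹ * d.out ∈ (A ⊓ Q).subgroupOf (A ⊓ P) := by
    rw [mem_subgroupOf]
    refine ⟨A.mul_mem (A.inv_mem c.out.2.1) d.out.2.1, ?_⟩
    have h5 := Q.mul_mem (Q.inv_mem (hf c.out).2) (hf d.out).2
    rw [h3] at h5
    have e : ((x (f d.out))⁻¹ * (c.out : G))⁻¹ * ((x (f d.out))⁻¹ * (d.out : G)) = (c.out : G)⁻¹ * (d.out : G) := by
      group
    rw [e] at h5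
    exact h5
  have h6 := QuotientGroup.eq.2 h4
  rwa [QuotientGroup.out_eq', QuotientGroup.out_eq'] at h6

/-! ### the filtration -/

/-- the lists of the filtration -/
def LL : ℕ → List ℕ
  | 0 => [14, 18, 13, 12, 19, 16, 15, 21, 17, 20, 22, 23]
  | 1 => [18, 13, 12, 19, 16, 15, 21, 17, 20, 22, 23]
  | 2 => [19, 16, 15, 21, 17, 20, 22, 23]
  | 3 => [21, 17, 20, 22, 23]
  | 4 => [22, 23]
  | 5 => [23]
  | _ => []

section

variable {K : Type*} [Field K] (σ : K ≃+* K)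

/-- the coordinates -/
noncomputable def xs (i : ℕ) (a : K) : GL chevD4.Idx K :=
  match i with
  | 0 => X6 a
  | 1 => X1 σ a
  | 2 => X5 σ a
  | 3 => X3 σ a
  | 4 => X2 a
  | _ => X4 a

/-- the restriction on the coordinates of the long roots -/
def okx (i : ℕ) (a : K) : Prop := (i = 0 ∨ i = 4 ∨ i = 5) → σ a = a

theorem LL_zero : LL 0 = ordA := rfl

theorem wordG_mem {l : List ℕ} {w : List (ℕ × K)} (h : ∀ p ∈ w, p.1 ∈ l) : wordG w ∈ RS K l := by
  induction w with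
  | nil => rw [wordG_nil]; exact one_mem _
  | cons p w ih =>
    rw [wordG_cons]
    exact mul_mem (xG_mem_RS (h p (by simp)) _) (ih fun p hp => h p (by simp [hp]))

theorem xs_mem (i : ℕ) (hi : i < 6) (a : K) : xs σ i a ∈ RS K (LL i) := by
  interval_cases i <;> exact wordG_mem (by simp [LL])

theorem LL_succ_le (i : ℕ) : RS K (LL (i + 1)) ≤ RS K (LL i) := by
  rcases i with _ | _ | _ | _ | _ | _ | i
  · exact RS_mono (by decide)
  · exact RS_mono (by decide)
  · exact RS_mono (by decide)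
  · exact RS_mono (by decide)
  · exact RS_mono (by decide)
  · exact RS_mono (by decide)
  · exact le_rfl

theorem xs_zero (i : ℕ) (hi : i < 6) : xs σ i 0 = 1 := by
  interval_cases i
  · show wordG [(14, (0 : K))] = 1
    simp only [wordG_cons, wordG_nil, xG_zero, mul_one]
  · show wordG [(18, (0 : K)), (13, σ 0), (12, σ (σ 0))] = 1
    simp only [wordG_cons, wordG_nil, map_zero, xG_zero, mul_one]
  · show wordG [(19, (0 : K)), (16, -σ 0), (15, -σ (σ 0))] = 1
    simp only [wordG_cons, wordG_nil, map_zero, neg_zero, xG_zero, mul_one]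
  · show wordG [(17, (-0 : K)), (20, σ 0), (21, σ (σ 0))] = 1
    simp only [wordG_cons, wordG_nil, map_zero, neg_zero, xG_zero, mul_one]
  · show wordG [(22, (0 : K))] = 1
    simp only [wordG_cons, wordG_nil, xG_zero, mul_one]
  · show wordG [(23, (-0 : K))] = 1
    simp only [wordG_cons, wordG_nil, neg_zero, xG_zero, mul_one]

/-- the form of the fixed elements -/
theorem elt_form (h3 : ∀ a, σ (σ (σ a)) = a) (a b c d e f : K) : elt (σ : K →+* K) a b c d e f =
    xs σ 0 a * (xs σ 1 b * (xs σ 2 c * (xs σ 3 (σ d) * (xs σ 4 e * xs σ 5 (-f))))) := by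
  rw [elt_eq]
  have e3 : (xG 21 d * xG 17 (-(σ : K →+* K) d) * xG 20 ((σ : K →+* K) ((σ : K →+* K) d)) : GL chevD4.Idx K) =
      xs σ 3 (σ d) := by
    show _ = wordG [(17, -σ d), (20, σ (σ d)), (21, σ (σ (σ d)))]
    rw [h3, wordG_cons, wordG_cons, wordG_cons, wordG_nil, mul_one]
    have c1 := (commute_of_ok (r := 21) (s := 17) (by decide +kernel) d (-σ d)).eq
    have c2 := (commute_of_ok (r := 21) (s := 20) (by decide +kernel) d (σ (σ d))).eq
    show xG 21 d * xG 17 (-σ d) * xG 20 (σ (σ d)) = _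
    rw [c1, mul_assoc, c2]
  rw [e3]
  show xG 14 a * (xG 18 b * xG 13 (σ b) * xG 12 (σ (σ b))) * (xG 19 c * xG 16 (-σ c) * xG 15 (-σ (σ c))) *
    xs σ 3 (σ d) * xG 22 e * xG 23 f = wordG [(14, a)] * (wordG [(18, b), (13, σ b), (12, σ (σ b))] *
      (wordG [(19, c), (16, -σ c), (15, -σ (σ c))] * (xs σ 3 (σ d) * (wordG [(22, e)] * wordG [(23, - -f)]))))
  simp only [wordG_cons, wordG_nil, mul_one, neg_neg, mul_assoc]

/-- the coordinates of an element of the filtration -/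
theorem exists_xs (h3 : ∀ a, σ (σ (σ a)) = a) {i : ℕ} (hi : i < 6) {g : GL chevD4.Idx K} (hg : g ∈ RS K (LL i))
    (hf : g ∈ fix (σ : K →+* K)) : ∃ a : K, okx σ i a ∧ (xs σ i a)⁻¹ * g ∈ RS K (LL (i + 1)) := by
  have hmono : RS K (LL i) ≤ RS K ordA := by
    clear hg hf
    interval_cases i <;> exact RS_mono (by decide)
  have hgp : g ∈ chevD4.posUnipotent K := by
    rw [posUnipotent_eq_rspan ordA mem_ordA_iff]
    exact hmono hg
  obtain ⟨a, b, c, d, e, f, rfl⟩ := exists_elt hgp hf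
  rw [elt_mem_fix_iff h3] at hf
  obtain ⟨ha, he, hf⟩ := hf
  have hsuf := fun (p : List ℕ) (hp : ordA = p ++ LL i) => lprod_suffix hp hg (t := crd (σ : K →+* K) a b c d e f) rfl
  have hm : ∀ j ≥ i, RS K (LL j) ≤ RS K (LL i) := by
    intro j hj
    induction j, hj using Nat.le_induction with
    | base => exact le_rfl
    | succ j _ ih => exact (LL_succ_le j).trans ih
  have hx : ∀ (j : ℕ) (_ : j < 6) (_ : i < j) (t : K), xs σ j t ∈ RS K (LL (i + 1)) := by
    intro j hj hij t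
    have h1 : RS K (LL j) ≤ RS K (LL (i + 1)) := by
      clear hsuf hm hg hmono hgp hi
      induction j, (show i + 1 ≤ j from hij) using Nat.le_induction with
      | base => exact le_rfl
      | succ j hj' ih => exact (LL_succ_le j).trans (ih (by omega) (by omega))
    exact h1 (xs_mem σ j hj t)
  rw [elt_form σ h3]
  interval_cases i
  · refine ⟨a, fun _ => ha, ?_⟩
    rw [inv_mul_cancel_left]
    exact mul_mem (hx 1 (by norm_num) (by norm_num) _) (mul_mem (hx 2 (by norm_num) (by norm_num) _)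
      (mul_mem (hx 3 (by norm_num) (by norm_num) _) (mul_mem (hx 4 (by norm_num) (by norm_num) _)
        (hx 5 (by norm_num) (by norm_num) _))))
  · have h14 : a = 0 := hsuf [14] rfl 14 (by simp)
    refine ⟨b, by rintro (h | h | h) <;> omega, ?_⟩
    rw [h14, xs_zero σ 0 (by norm_num), one_mul, inv_mul_cancel_left]
    exact mul_mem (hx 2 (by norm_num) (by norm_num) _)
      (mul_mem (hx 3 (by norm_num) (by norm_num) _) (mul_mem (hx 4 (by norm_num) (by norm_num) _)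
        (hx 5 (by norm_num) (by norm_num) _)))
  · have h14 : a = 0 := hsuf [14, 18, 13, 12] rfl 14 (by simp)
    have h18 : b = 0 := hsuf [14, 18, 13, 12] rfl 18 (by simp)
    refine ⟨c, by rintro (h | h | h) <;> omega, ?_⟩
    rw [h14, h18, xs_zero σ 0 (by norm_num), one_mul, xs_zero σ 1 (by norm_num), one_mul, inv_mul_cancel_left]
    exact mul_mem (hx 3 (by norm_num) (by norm_num) _) (mul_mem (hx 4 (by norm_num) (by norm_num) _)
        (hx 5 (by norm_num) (by norm_num) _))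
  · have h14 : a = 0 := hsuf [14, 18, 13, 12, 19, 16, 15] rfl 14 (by simp)
    have h18 : b = 0 := hsuf [14, 18, 13, 12, 19, 16, 15] rfl 18 (by simp)
    have h19 : c = 0 := hsuf [14, 18, 13, 12, 19, 16, 15] rfl 19 (by simp)
    refine ⟨σ d, by rintro (h | h | h) <;> omega, ?_⟩
    rw [h14, h18, h19, xs_zero σ 0 (by norm_num), one_mul, xs_zero σ 1 (by norm_num), one_mul,
      xs_zero σ 2 (by norm_num), one_mul, inv_mul_cancel_left]
    exact mul_mem (hx 4 (by norm_num) (by norm_num) _) (hx 5 (by norm_num) (by norm_num) _)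
  · have h14 : a = 0 := hsuf [14, 18, 13, 12, 19, 16, 15, 21, 17, 20] rfl 14 (by simp)
    have h18 : b = 0 := hsuf [14, 18, 13, 12, 19, 16, 15, 21, 17, 20] rfl 18 (by simp)
    have h19 : c = 0 := hsuf [14, 18, 13, 12, 19, 16, 15, 21, 17, 20] rfl 19 (by simp)
    have h21 : d = 0 := hsuf [14, 18, 13, 12, 19, 16, 15, 21, 17, 20] rfl 21 (by simp)
    refine ⟨e, fun _ => he, ?_⟩
    rw [h14, h18, h19, h21, map_zero, xs_zero σ 0 (by norm_num), one_mul, xs_zero σ 1 (by norm_num), one_mul,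
      xs_zero σ 2 (by norm_num), one_mul, xs_zero σ 3 (by norm_num), one_mul, inv_mul_cancel_left]
    exact hx 5 (by norm_num) (by norm_num) _
  · have h14 : a = 0 := hsuf [14, 18, 13, 12, 19, 16, 15, 21, 17, 20, 22] rfl 14 (by simp)
    have h18 : b = 0 := hsuf [14, 18, 13, 12, 19, 16, 15, 21, 17, 20, 22] rfl 18 (by simp)
    have h19 : c = 0 := hsuf [14, 18, 13, 12, 19, 16, 15, 21, 17, 20, 22] rfl 19 (by simp)
    have h21 : d = 0 := hsuf [14, 18, 13, 12, 19, 16, 15, 21, 17, 20, 22] rfl 21 (by simp)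
    have h22 : e = 0 := hsuf [14, 18, 13, 12, 19, 16, 15, 21, 17, 20, 22] rfl 22 (by simp)
    refine ⟨-f, fun _ => by rw [map_neg]; exact congrArg _ hf, ?_⟩
    rw [h14, h18, h19, h21, h22, map_zero, xs_zero σ 0 (by norm_num), one_mul, xs_zero σ 1 (by norm_num), one_mul,
      xs_zero σ 2 (by norm_num), one_mul, xs_zero σ 3 (by norm_num), one_mul, xs_zero σ 4 (by norm_num), one_mul,
      inv_mul_cancel]
    exact one_mem _

/-- uniqueness of the leading coordinate -/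
theorem xs_inj (h3 : ∀ a, σ (σ (σ a)) = a) {i : ℕ} (hi : i < 6) {a : K} (ha : xs σ i a ∈ RS K (LL (i + 1))) :
    a = 0 := by
  have z0 := xs_zero σ 0 (by norm_num)
  have z1 := xs_zero σ 1 (by norm_num)
  have z2 := xs_zero σ 2 (by norm_num)
  have z3 := xs_zero σ 3 (by norm_num)
  have z4 := xs_zero σ 4 (by norm_num)
  have z5 := xs_zero σ 5 (by norm_num)
  interval_cases i
  · have e : xs σ 0 a = lprod xG ordA (crd (σ : K →+* K) a 0 0 0 0 0) := by
      have := elt_form σ h3 a 0 0 0 0 0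
      rw [map_zero, neg_zero, z1, z2, z3, z4, z5, one_mul, one_mul, one_mul, one_mul, mul_one] at this
      exact this.symm
    exact lprod_suffix (p := [14]) (l := LL 1) rfl ha e 14 (by simp)
  · have e : xs σ 1 a = lprod xG ordA (crd (σ : K →+* K) 0 a 0 0 0 0) := by
      have := elt_form σ h3 0 a 0 0 0 0
      rw [map_zero, neg_zero, z0, z2, z3, z4, z5, one_mul, one_mul, one_mul, one_mul, mul_one] at this
      exact this.symm
    exact lprod_suffix (p := [14, 18, 13, 12]) (l := LL 2) rfl ha e 18 (by simp)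
  · have e : xs σ 2 a = lprod xG ordA (crd (σ : K →+* K) 0 0 a 0 0 0) := by
      have := elt_form σ h3 0 0 a 0 0 0
      rw [map_zero, neg_zero, z0, z1, z3, z4, z5, one_mul, one_mul, one_mul, one_mul, mul_one] at this
      exact this.symm
    exact lprod_suffix (p := [14, 18, 13, 12, 19, 16, 15]) (l := LL 3) rfl ha e 19 (by simp)
  · have e : xs σ 3 a = lprod xG ordA (crd (σ : K →+* K) 0 0 0 (σ (σ a)) 0 0) := by
      have := elt_form σ h3 0 0 0 (σ (σ a)) 0 0
      rw [h3, neg_zero, z0, z1, z2, z4, z5, one_mul, one_mul, one_mul, mul_one, mul_one] at this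
      exact this.symm
    have h := lprod_suffix (p := [14, 18, 13, 12, 19, 16, 15, 21, 17, 20]) (l := LL 4) rfl ha e 21 (by simp)
    have h' : σ (σ a) = 0 := h
    exact (map_eq_zero σ).1 ((map_eq_zero σ).1 h')
  · have e : xs σ 4 a = lprod xG ordA (crd (σ : K →+* K) 0 0 0 0 a 0) := by
      have := elt_form σ h3 0 0 0 0 a 0
      rw [map_zero, neg_zero, z0, z1, z2, z3, z5, one_mul, one_mul, one_mul, one_mul, mul_one] at this
      exact this.symm
    exact lprod_suffix (p := [14, 18, 13, 12, 19, 16, 15, 21, 17, 20, 22]) (l := LL 5) rfl ha e 22 (by simp)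
  · have e : xs σ 5 a = lprod xG ordA (crd (σ : K →+* K) 0 0 0 0 0 (-a)) := by
      have := elt_form σ h3 0 0 0 0 0 (-a)
      rw [map_zero, neg_neg, z0, z1, z2, z3, z4, one_mul, one_mul, one_mul, one_mul, one_mul] at this
      exact this.symm
    have h := lprod_suffix (p := [14, 18, 13, 12, 19, 16, 15, 21, 17, 20, 22, 23]) (l := LL 6) rfl ha e 23 (by simp)
    have h' : -a = 0 := h
    exact neg_eq_zero.1 h'

/-- the filtration is normal -/
theorem LL_conj {i : ℕ} (hi : i ≤ 6) {g v : GL chevD4.Idx K} (hg : g ∈ RS K (LL 0)) (hv : v ∈ RS K (LL i)) :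
    g * v * g⁻¹ ∈ RS K (LL i) := by
  interval_cases i
  · exact conj_mem' (m := LL 0) (l := LL 0) (by decide +kernel) hg v hv
  · exact conj_mem' (m := LL 0) (l := LL 1) (by decide +kernel) hg v hv
  · exact conj_mem' (m := LL 0) (l := LL 2) (by decide +kernel) hg v hv
  · exact conj_mem' (m := LL 0) (l := LL 3) (by decide +kernel) hg v hv
  · exact conj_mem' (m := LL 0) (l := LL 4) (by decide +kernel) hg v hv
  · exact conj_mem' (m := LL 0) (l := LL 5) (by decide +kernel) hg v hv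
  · exact conj_mem' (m := LL 0) (l := LL 6) (by decide +kernel) hg v hv

/-- the filtration is central -/
theorem LL_central {i : ℕ} (hi : i < 6) {g v : GL chevD4.Idx K} (hg : g ∈ RS K (LL 0)) (hv : v ∈ RS K (LL i)) :
    ⁅g, v⁆ ∈ RS K (LL (i + 1)) := by
  interval_cases i
  · exact comm_RS (l := LL 0) (m := LL 0) (l' := LL 1) (by decide +kernel) (by decide +kernel) (by decide +kernel) hg hv
  · exact comm_RS (l := LL 0) (m := LL 1) (l' := LL 2) (by decide +kernel) (by decide +kernel) (by decide +kernel) hg hv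
  · exact comm_RS (l := LL 0) (m := LL 2) (l' := LL 3) (by decide +kernel) (by decide +kernel) (by decide +kernel) hg hv
  · exact comm_RS (l := LL 0) (m := LL 3) (l' := LL 4) (by decide +kernel) (by decide +kernel) (by decide +kernel) hg hv
  · exact comm_RS (l := LL 0) (m := LL 4) (l' := LL 5) (by decide +kernel) (by decide +kernel) (by decide +kernel) hg hv
  · exact comm_RS (l := LL 0) (m := LL 5) (l' := LL 6) (by decide +kernel) (by decide +kernel) (by decide +kernel) hg hv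

theorem LL_le_zero {i : ℕ} : RS K (LL i) ≤ RS K (LL 0) := by
  induction i with
  | zero => exact le_rfl
  | succ i ih => exact (LL_succ_le i).trans ih

/-- the leading coordinates of commuting elements -/
theorem kk_LL {i j k : ℕ} (hi : i < 6) (hj : j < 6) (hk : k ≤ 6)
    (h1 : ∀ u ∈ RS K (LL (i + 1)), ∀ v ∈ RS K (LL j), ⁅u, v⁆ ∈ RS K (LL k))
    (h3 : ∀ a : K, ∀ v ∈ RS K (LL (j + 1)), ⁅xs σ i a, v⁆ ∈ RS K (LL k))
    {g h : GL chevD4.Idx K} {a b : K} (hg : (xs σ i a)⁻¹ * g ∈ RS K (LL (i + 1)))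
    (hh : (xs σ j b)⁻¹ * h ∈ RS K (LL (j + 1))) (hc : g * h = h * g) :
    kk (xs σ i a) (xs σ j b) ∈ RS K (LL k) := by
  refine kk_mem (H := RS K (LL 0)) (N := RS K (LL k)) (u := (xs σ i a)⁻¹ * g) (v := (xs σ j b)⁻¹ * h)
    (fun g hg n hn => LL_conj hk hg hn) (LL_le_zero (xs_mem σ i hi a)) (LL_le_zero hg) (LL_le_zero (xs_mem σ j hj b))
    (LL_le_zero hh) (h1 _ hg _ (xs_mem σ j hj b)) (h1 _ hg _ ((LL_succ_le j) hh)) (h3 a _ hh) ?_
  rw [mul_inv_cancel_left, mul_inv_cancel_left]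
  exact hc

/-- roots `b`, `a` -/
theorem rel01 (h3 : ∀ a, σ (σ (σ a)) = a) {g h : GL chevD4.Idx K} {t a : K} (ht : σ t = t)
    (hg : (xs σ 0 t)⁻¹ * g ∈ RS K (LL 1)) (hh : (xs σ 1 a)⁻¹ * h ∈ RS K (LL 2)) (hc : g * h = h * g) : t * a = 0 := by
  have h1 := kk_LL σ (i := 0) (j := 1) (k := 3) (by norm_num) (by norm_num) (by norm_num)
    (fun u hu v hv => comm_RS (l := LL 1) (m := LL 1) (l' := LL 3) (by decide +kernel) (by decide +kernel)
      (by decide +kernel) hu hv)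
    (fun a v hv => comm_RS (l := [14]) (m := LL 2) (l' := LL 3) (by decide +kernel) (by decide +kernel)
      (by decide +kernel) (wordG_mem (w := [(14, a)]) (by simp)) hv) hg hh hc
  have h2 : kk (xs σ 1 a) (xs σ 0 t) ∈ RS K (LL 3) := by
    have e : kk (xs σ 1 a) (xs σ 0 t) = (kk (xs σ 0 t) (xs σ 1 a))⁻¹ := by rw [kk, kk]; group
    rw [e]
    exact inv_mem h1
  have h4 := (hexRel σ h3).c16 a t ht
  have h5 : kk (xs σ 1 a) (xs σ 0 t) = xs σ 4 (-(t * nrm σ a)) * xs σ 3 (t * shp σ a) * xs σ 5 (t ^ 2 * nrm σ a) *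
    xs σ 2 (-(t * a)) := h4
  rw [h5] at h2
  have m4 : xs σ 4 (-(t * nrm σ a)) ∈ RS K (LL 3) := LL_succ_le 3 (xs_mem σ 4 (by norm_num) _)
  have m3 : xs σ 3 (t * shp σ a) ∈ RS K (LL 3) := xs_mem σ 3 (by norm_num) _
  have m5 : xs σ 5 (t ^ 2 * nrm σ a) ∈ RS K (LL 3) := LL_succ_le 3 (LL_succ_le 4 (xs_mem σ 5 (by norm_num) _))
  have h6 : xs σ 2 (-(t * a)) ∈ RS K (LL 3) := by
    have := mul_mem (inv_mem (mul_mem (mul_mem m4 m3) m5)) h2
    rwa [inv_mul_cancel_left] at this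
  have h7 := xs_inj σ h3 (by norm_num) h6
  exact neg_eq_zero.1 h7

/-- roots `a + b`, `2a + b` -/
theorem rel23 (h3 : ∀ a, σ (σ (σ a)) = a) {g h : GL chevD4.Idx K} {b c : K}
    (hg : (xs σ 2 b)⁻¹ * g ∈ RS K (LL 3)) (hh : (xs σ 3 c)⁻¹ * h ∈ RS K (LL 4)) (hc : g * h = h * g) :
    trc σ c b = 0 := by
  have h1 := kk_LL σ (i := 2) (j := 3) (k := 6) (by norm_num) (by norm_num) (by norm_num)
    (fun u hu v hv => comm_RS (l := LL 3) (m := LL 3) (l' := LL 6) (by decide +kernel) (by decide +kernel)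
      (by decide +kernel) hu hv)
    (fun a v hv => comm_RS (l := [19, 16, 15]) (m := LL 4) (l' := LL 6) (by decide +kernel) (by decide +kernel)
      (by decide +kernel) (wordG_mem (by simp)) hv) hg hh hc
  have h2 : kk (xs σ 3 c) (xs σ 2 b) ∈ RS K (LL 6) := by
    have e : kk (xs σ 3 c) (xs σ 2 b) = (kk (xs σ 2 b) (xs σ 3 c))⁻¹ := by rw [kk, kk]; group
    rw [e]
    exact inv_mem h1
  have h4 : kk (xs σ 3 c) (xs σ 2 b) = xs σ 5 (trc σ c b) := (hexRel σ h3).c35 c b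
  rw [h4] at h2
  exact xs_inj σ h3 (by norm_num) h2

/-- roots `a`, `2a + b` -/
theorem rel13 (h3 : ∀ a, σ (σ (σ a)) = a) {g h : GL chevD4.Idx K} {a c : K}
    (hg : (xs σ 1 a)⁻¹ * g ∈ RS K (LL 2)) (hh : (xs σ 3 c)⁻¹ * h ∈ RS K (LL 4)) (hc : g * h = h * g) :
    trc σ a c = 0 := by
  have h1 := kk_LL σ (i := 1) (j := 3) (k := 5) (by norm_num) (by norm_num) (by norm_num)
    (fun u hu v hv => comm_RS (l := LL 2) (m := LL 3) (l' := LL 5) (by decide +kernel) (by decide +kernel)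
      (by decide +kernel) hu hv)
    (fun a v hv => comm_RS (l := [18, 13, 12]) (m := LL 4) (l' := LL 5) (by decide +kernel) (by decide +kernel)
      (by decide +kernel) (wordG_mem (by simp)) hv) hg hh hc
  have h4 : kk (xs σ 1 a) (xs σ 3 c) = xs σ 4 (trc σ a c) := (hexRel σ h3).c13 a c
  rw [h4] at h1
  exact xs_inj σ h3 (by norm_num) h1

/-- roots `a`, `a + b` -/
theorem rel12 (h3 : ∀ a, σ (σ (σ a)) = a) {g h : GL chevD4.Idx K} {a b : K}
    (hg : (xs σ 1 a)⁻¹ * g ∈ RS K (LL 2)) (hh : (xs σ 2 b)⁻¹ * h ∈ RS K (LL 3)) (hc : g * h = h * g) :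
    crs σ a b = 0 := by
  have h1 := kk_LL σ (i := 1) (j := 2) (k := 4) (by norm_num) (by norm_num) (by norm_num)
    (fun u hu v hv => comm_RS (l := LL 2) (m := LL 2) (l' := LL 4) (by decide +kernel) (by decide +kernel)
      (by decide +kernel) hu hv)
    (fun a v hv => comm_RS (l := [18, 13, 12]) (m := LL 3) (l' := LL 4) (by decide +kernel) (by decide +kernel)
      (by decide +kernel) (wordG_mem (by simp)) hv) hg hh hc
  have h4 : kk (xs σ 1 a) (xs σ 2 b) = xs σ 4 (-(trc σ (shp σ a) b)) * xs σ 3 (crs σ a b) *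
    xs σ 5 (trc σ a (shp σ b)) := (hexRel σ h3).c15 a b
  rw [h4] at h1
  have m4 : xs σ 4 (-(trc σ (shp σ a) b)) ∈ RS K (LL 4) := xs_mem σ 4 (by norm_num) _
  have m5 : xs σ 5 (trc σ a (shp σ b)) ∈ RS K (LL 4) := LL_succ_le 4 (xs_mem σ 5 (by norm_num) _)
  have h6 : xs σ 3 (crs σ a b) ∈ RS K (LL 4) := by
    have := mul_mem (inv_mem m4) (mul_mem h1 (inv_mem m5))
    have e : (xs σ 4 (-(trc σ (shp σ a) b)))⁻¹ * (xs σ 4 (-(trc σ (shp σ a) b)) * xs σ 3 (crs σ a b) *
        xs σ 5 (trc σ a (shp σ b)) * (xs σ 5 (trc σ a (shp σ b)))⁻¹) = xs σ 3 (crs σ a b) := by group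
    rwa [e] at this
  exact xs_inj σ h3 (by norm_num) h6

end

end Cfsg.Agent.H804.D4Ab
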