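import Cfsg.Agent.H804.D4Ab.Uni
import Cfsg.Agent.H804.D4Ab.Field

/-!
# Abelian unipotent subgroups of `³D₄(q)`: orders (helper804, S2501)

* `card_le_prod` : `|A| ≤ ∏ |D i|`, `D i` the leading coordinates;
* `card_six` : `|A| ≤ q⁶`;
* `card_four`, `card_one` : the bounds for a subgroup centralised by an element `t u`, `t ≠ 1` in the torus.
-/

set_option autoImplicit false

namespace Cfsg.Agent.H804.D4Ab

open Cfsg.Lie Subgroup
open Cfsg.Agent.ChevalleyStructure.D4Fixed (sig coe_sig fix mem_fix)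
open Cfsg.Agent.ChevalleyStructure
open Cfsg.Agent.ChevalleyStructure.D4Comm
open Cfsg.Agent.ChevalleyStructure.D4U
open Cfsg.Agent.KFacts.Mult.D4Base
open Cfsg.Agent.Hexagon.TwD4Rel Cfsg.Agent.SplitTwo

variable {K : Type*} [Field K] [Fintype K] {σ : K ≃+* K} {q : ℕ}

/-- the leading coordinates of `A` -/
def Dc (σ : K ≃+* K) (A : Subgroup (GL chevD4.Idx K)) (i : ℕ) : Set K :=
  {a | okx σ i a ∧ ∃ g ∈ A, g ∈ RS K (LL i) ∧ (xs σ i a)⁻¹ * g ∈ RS K (LL (i + 1))}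

theorem card_dc (h3 : ∀ a, σ (σ (σ a)) = a) {A : Subgroup (GL chevD4.Idx K)} (hf : A ≤ fix (σ : K →+* K)) {i : ℕ}
    (hi : i < 6) : Nat.card ↥(A ⊓ RS K (LL i)) ≤ Nat.card (Dc σ A i) * Nat.card ↥(A ⊓ RS K (LL (i + 1))) := by
  refine card_step (LL_succ_le i) (xs σ i) A (Dc σ A i) ?_
  rintro g ⟨hg, hg'⟩
  obtain ⟨a, ha, h⟩ := exists_xs σ h3 hi hg' (hf hg)
  exact ⟨a, ⟨ha, g, hg, hg', h⟩, h⟩

theorem card_le_prod (h3 : ∀ a, σ (σ (σ a)) = a) {A : Subgroup (GL chevD4.Idx K)} (hf : A ≤ fix (σ : K →+* K))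
    (hA : A ≤ RS K (LL 0)) : Nat.card A ≤ Nat.card (Dc σ A 0) * Nat.card (Dc σ A 1) * Nat.card (Dc σ A 2) *
      Nat.card (Dc σ A 3) * Nat.card (Dc σ A 4) * Nat.card (Dc σ A 5) := by
  have h0 := card_dc h3 hf (i := 0) (by norm_num)
  have h1 := card_dc h3 hf (i := 1) (by norm_num)
  have h2 := card_dc h3 hf (i := 2) (by norm_num)
  have h3' := card_dc h3 hf (i := 3) (by norm_num)
  have h4 := card_dc h3 hf (i := 4) (by norm_num)
  have h5 := card_dc h3 hf (i := 5) (by norm_num)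
  have e0 : A ⊓ RS K (LL 0) = A := inf_eq_left.2 hA
  have e6 : RS K (LL 6) = ⊥ := by
    rw [eq_bot_iff]
    refine Cfsg.Agent.ChevalleyStructure.TwistedU.rspan_le D4Comm.xG fun s hs t => ?_
    exact absurd hs (by simp [LL])
  have e7 : Nat.card ↥(A ⊓ RS K (LL (5 + 1))) = 1 := by
    rw [show 5 + 1 = 6 from rfl, e6, inf_bot_eq, Subgroup.card_bot]
  rw [e0] at h0
  rw [e7, mul_one] at h5
  calc Nat.card A ≤ Nat.card (Dc σ A 0) * Nat.card ↥(A ⊓ RS K (LL 1)) := h0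
    _ ≤ Nat.card (Dc σ A 0) * (Nat.card (Dc σ A 1) * (Nat.card (Dc σ A 2) * (Nat.card (Dc σ A 3) *
        (Nat.card (Dc σ A 4) * Nat.card (Dc σ A 5))))) := by
      gcongr
      refine h1.trans ?_
      gcongr
      refine h2.trans ?_
      gcongr
      refine h3'.trans ?_
      gcongr
      refine h4.trans ?_
      gcongr
    _ = _ := by ring

theorem card_long (hq : 1 < q) (hK : Fintype.card K = q ^ 3) (hσ : ∀ x, σ x = x ^ q)
    {A : Subgroup (GL chevD4.Idx K)} {i : ℕ} (hi : i = 0 ∨ i = 4 ∨ i = 5) : Nat.card (Dc σ A i) ≤ q :=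
  card_fix hq hK hσ fun _ hb => hb.1 hi

theorem card_short (hK : Fintype.card K = q ^ 3) {D : Set K} : Nat.card D ≤ q ^ 3 := by
  rw [← hK, ← Nat.card_eq_fintype_card]
  exact Nat.card_le_card_of_injective _ Subtype.val_injective

theorem card_zero {D : Set K} (h : ∀ a ∈ D, a = 0) : Nat.card D ≤ 1 := by
  have : D ⊆ {0} := fun a ha => h a ha
  refine (Nat.card_mono (Set.toFinite _) this).trans ?_
  rw [Nat.card_unique]

/-- **Abelian unipotent subgroups have order at most `q⁶`.** -/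
theorem card_six (hq : 1 < q) (hK : Fintype.card K = q ^ 3) (hσ : ∀ x, σ x = x ^ q) (h3 : ∀ a, σ (σ (σ a)) = a)
    {A : Subgroup (GL chevD4.Idx K)} (hf : A ≤ fix (σ : K →+* K)) (hA : A ≤ RS K (LL 0))
    (hc : ∀ x ∈ A, ∀ y ∈ A, x * y = y * x) : Nat.card A ≤ q ^ 6 := by
  refine (card_le_prod h3 hf hA).trans ?_
  have c0 := card_long hq hK hσ (A := A) (i := 0) (by norm_num)
  have c4 := card_long hq hK hσ (A := A) (i := 4) (by norm_num)
  have c5 := card_long hq hK hσ (A := A) (i := 5) (by norm_num)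
  have c23 : Nat.card (Dc σ A 3) * Nat.card (Dc σ A 2) ≤ q ^ 3 := by
    refine card_trc hq hK hσ h3 ?_
    rintro c ⟨-, h, hh, -, hh'⟩ b ⟨-, g, hg, -, hg'⟩
    exact rel23 σ h3 hg' hh' (hc g hg h hh)
  by_cases hD1 : ∀ a ∈ Dc σ A 1, a = 0
  · have c1 := card_zero hD1
    calc _ = Nat.card (Dc σ A 0) * Nat.card (Dc σ A 1) * (Nat.card (Dc σ A 3) * Nat.card (Dc σ A 2)) *
          Nat.card (Dc σ A 4) * Nat.card (Dc σ A 5) := by ring
      _ ≤ q * 1 * q ^ 3 * q * q := by gcongr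
      _ = q ^ 6 := by ring
  · push Not at hD1
    obtain ⟨a, ha, ha0⟩ := hD1
    have c13 : Nat.card (Dc σ A 1) * Nat.card (Dc σ A 3) ≤ q ^ 3 := by
      refine card_trc hq hK hσ h3 ?_
      rintro c ⟨-, h, hh, -, hh'⟩ b ⟨-, g, hg, -, hg'⟩
      exact rel13 σ h3 hh' hg' (hc h hh g hg)
    have c2 : Nat.card (Dc σ A 2) ≤ q := by
      refine card_crs hq hK hσ h3 ha0 ?_
      obtain ⟨-, g, hg, -, hg'⟩ := ha
      rintro b ⟨-, h, hh, -, hh'⟩
      exact rel12 σ h3 hg' hh' (hc g hg h hh)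
    have c0' : Nat.card (Dc σ A 0) ≤ 1 := by
      refine card_zero ?_
      obtain ⟨-, g, hg, -, hg'⟩ := ha
      rintro b ⟨hb, h, hh, -, hh'⟩
      have := rel01 σ h3 (hb (by norm_num)) hh' hg' (hc h hh g hg)
      exact (mul_eq_zero.1 this).resolve_right ha0
    calc _ = Nat.card (Dc σ A 0) * (Nat.card (Dc σ A 1) * Nat.card (Dc σ A 3)) * Nat.card (Dc σ A 2) *
          Nat.card (Dc σ A 4) * Nat.card (Dc σ A 5) := by ring
      _ ≤ 1 * q ^ 3 * q * q * q := by gcongr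
      _ = q ^ 6 := by ring

end Cfsg.Agent.H804.D4Ab
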